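import Mathlib

set_option autoImplicit false

/-! A `p`-group with a normal elementary abelian subgroup `A` of index `p` and an element of `A`
with non-trivial norm under an outer element maps onto a Sylow `p`-subgroup of the symmetric group
of degree `p ^ 2` (lead). -/

namespace Cfsg.Agent.Lib.Lead.WreathImage

/-- In a commutative group of exponent `p` the norm `∏_{j<p} c^j b` is `(c - 1)^(p-1) b`. -/
theorem norm_eq_iter_aux {p : ℕ} [hp : Fact p.Prime] {B : Type*} [CommGroup B]
    [Module (ZMod p) (Additive B)] (c : B →* B) (b : B) :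
    ∏ j ∈ Finset.range p, c^[j] b = (fun b : B => c b * b⁻¹)^[p - 1] b := by
  let cL : Additive B →ₗ[ZMod p] Additive B :=
    AddMonoidHom.toZModLinearMap p (MonoidHom.toAdditive c)
  have hcL : ∀ x : Additive B, cL x = Additive.ofMul (c (Additive.toMul x)) := fun x => rfl
  have hpow : ∀ (n : ℕ) (x : Additive B),
      (cL ^ n) x = Additive.ofMul (c^[n] (Additive.toMul x)) := by
    intro n
    induction n with
    | zero => intro x; rfl
    | succ n ih =>
      intro x
      rw [pow_succ, Module.End.mul_apply, ih, hcL, Function.iterate_succ_apply]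
      rfl
  have hsub1 : ∀ x : Additive B, (cL - 1) x =
      Additive.ofMul (c (Additive.toMul x) * (Additive.toMul x)⁻¹) := by
    intro x
    rw [LinearMap.sub_apply, Module.End.one_apply, hcL, ← div_eq_mul_inv]
    rfl
  have hsub : ∀ (n : ℕ) (x : Additive B), ((cL - 1) ^ n) x =
      Additive.ofMul ((fun b : B => c b * b⁻¹)^[n] (Additive.toMul x)) := by
    intro n
    induction n with
    | zero => intro x; rfl
    | succ n ih =>
      intro x
      rw [pow_succ, Module.End.mul_apply, ih, hsub1, Function.iterate_succ_apply]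
      rfl
  have hpoly : (∑ j ∈ Finset.range p, (Polynomial.X : Polynomial (ZMod p)) ^ j) =
      (Polynomial.X - 1) ^ (p - 1) := by
    have h1 : (∑ j ∈ Finset.range p, (Polynomial.X : Polynomial (ZMod p)) ^ j) *
        (Polynomial.X - 1) = (Polynomial.X - 1) ^ (p - 1) * (Polynomial.X - 1) := by
      rw [geom_sum_mul, ← pow_succ, Nat.sub_add_cancel hp.out.pos, sub_pow_char, one_pow]
    have h2 : (Polynomial.X - 1 : Polynomial (ZMod p)) ≠ 0 := by
      have := Polynomial.X_sub_C_ne_zero (1 : ZMod p)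
      rwa [map_one] at this
    exact mul_right_cancel₀ h2 h1
  have h3 := congrArg (Polynomial.aeval cL) hpoly
  rw [map_sum] at h3
  simp only [map_pow, Polynomial.aeval_X, map_sub, map_one] at h3
  have h4 := congrArg (fun f : Module.End (ZMod p) (Additive B) => f (Additive.ofMul b)) h3
  simp only [LinearMap.sum_apply] at h4
  have h5 : ∑ j ∈ Finset.range p, (cL ^ j) (Additive.ofMul b) =
      Additive.ofMul (∏ j ∈ Finset.range p, c^[j] b) := by
    rw [ofMul_prod]
    exact Finset.sum_congr rfl (fun j _ => hpow j _)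
  rw [h5, hsub] at h4
  exact h4

theorem norm_eq_iter {p : ℕ} [hp : Fact p.Prime] {B : Type*} [CommGroup B]
    (hexp : ∀ b : B, b ^ p = 1) (c : B →* B) (b : B) :
    ∏ j ∈ Finset.range p, c^[j] b = (fun b : B => c b * b⁻¹)^[p - 1] b := by
  let _ : Module (ZMod p) (Additive B) := AddCommGroup.zmodModule (n := p) (by
    intro x
    exact congrArg Additive.ofMul (hexp (Additive.toMul x)))
  exact norm_eq_iter_aux c b

/-- The chain bound: if the norm of `b` is outside `H ≥ K` with `K` invariant under `c`, then `K`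
has index at least `p ^ p`. -/
theorem chain_bound {p : ℕ} [hp : Fact p.Prime] {B : Type*} [CommGroup B] [Finite B]
    (hexp : ∀ b : B, b ^ p = 1) (c : B →* B) (hc : ∀ b : B, c^[p] b = b)
    (K H : Subgroup B) (hKH : K ≤ H) (hcK : ∀ k ∈ K, c k ∈ K) (b : B)
    (hb : ∏ j ∈ Finset.range p, c^[j] b ∉ H) :
    p ^ p * Nat.card K ≤ Nat.card B := by
  classical
  have hp0 : 0 < p := hp.out.pos
  let δ : B → B := fun b => c b * b⁻¹
  have hδ : ∀ u : B, δ u = c u * u⁻¹ := fun u => rfl
  have hδmul : ∀ u v : B, δ (u * v) = δ u * δ v := by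
    intro u v
    rw [hδ, hδ, hδ, map_mul, mul_inv]
    exact mul_mul_mul_comm _ _ _ _
  have hδone : δ 1 = 1 := by rw [hδ, map_one, inv_one, mul_one]
  have hitmul : ∀ (n : ℕ) (u v : B), δ^[n] (u * v) = δ^[n] u * δ^[n] v := by
    intro n
    induction n with
    | zero => intro u v; rfl
    | succ n ih =>
      intro u v
      rw [Function.iterate_succ_apply', Function.iterate_succ_apply',
        Function.iterate_succ_apply', ih, hδmul]
  have hitone : ∀ n : ℕ, δ^[n] 1 = 1 := by
    intro n
    induction n with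
    | zero => rfl
    | succ n ih => rw [Function.iterate_succ_apply', ih, hδone]
  have hitK : ∀ (n : ℕ), ∀ k ∈ K, δ^[n] k ∈ K := by
    intro n
    induction n with
    | zero => intro k hk; exact hk
    | succ n ih =>
      intro k hk
      rw [Function.iterate_succ_apply', hδ]
      exact K.mul_mem (hcK _ (ih k hk)) (K.inv_mem (ih k hk))
  obtain ⟨n₀, hn₀⟩ : ∃ n₀ : B, n₀ = ∏ j ∈ Finset.range p, c^[j] b := ⟨_, rfl⟩
  have hN : δ^[p - 1] b = n₀ := by rw [hn₀]; exact (norm_eq_iter hexp c b).symm
  have hcn : c n₀ = n₀ := by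
    have h1 : ∏ j ∈ Finset.range (p + 1), c^[j] b =
        (∏ j ∈ Finset.range p, c^[j + 1] b) * c^[0] b := Finset.prod_range_succ' _ _
    have h2 : ∏ j ∈ Finset.range (p + 1), c^[j] b =
        (∏ j ∈ Finset.range p, c^[j] b) * c^[p] b := Finset.prod_range_succ _ _
    have h3 : c n₀ = ∏ j ∈ Finset.range p, c^[j + 1] b := by
      rw [hn₀, map_prod]
      exact Finset.prod_congr rfl (fun j _ => (Function.iterate_succ_apply' c j b).symm)
    rw [h3, hn₀]
    rw [h1, hc b] at h2
    exact mul_right_cancel h2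
  have hδn : δ n₀ = 1 := by rw [hδ, hcn, mul_inv_cancel]
  have hge : ∀ m : ℕ, p ≤ m → δ^[m] b = 1 := by
    intro m hm
    obtain ⟨t, rfl⟩ : ∃ t, m = t + 1 + (p - 1) := ⟨m - p, by omega⟩
    rw [Function.iterate_add_apply, hN, Function.iterate_succ_apply, hδn, hitone]
  let Bj : ℕ → Subgroup B := fun j => K ⊔ Subgroup.closure {u | ∃ i, j ≤ i ∧ u = δ^[i] b}
  have hmono : ∀ j, Bj (j + 1) ≤ Bj j := by
    intro j
    apply sup_le_sup_left
    apply Subgroup.closure_mono
    rintro u ⟨i, hi, rfl⟩
    exact ⟨i, by omega, rfl⟩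
  have hnot : ∀ j, j < p → δ^[j] b ∉ Bj (j + 1) := by
    intro j hj hmem
    have hle : Bj (j + 1) ≤ K.comap (MonoidHom.mk' (δ^[p - 1 - j]) (hitmul _)) := by
      apply sup_le
      · intro k hk
        exact hitK _ k hk
      · rw [Subgroup.closure_le]
        rintro u ⟨i, hi, rfl⟩
        show δ^[p - 1 - j] (δ^[i] b) ∈ K
        rw [← Function.iterate_add_apply, hge _ (by omega)]
        exact K.one_mem
    have h2 : δ^[p - 1 - j] (δ^[j] b) ∈ K := hle hmem
    rw [← Function.iterate_add_apply, show p - 1 - j + j = p - 1 by omega, hN] at h2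
    exact hb (hn₀ ▸ hKH h2)
  have hpg : IsPGroup p B := fun g => ⟨1, by simpa using hexp g⟩
  have key : ∀ m, m ≤ p → p ^ m * Nat.card K ≤ Nat.card (Bj (p - m)) := by
    intro m
    induction m with
    | zero =>
      intro _
      simpa using Subgroup.card_le_of_le (le_sup_left : K ≤ Bj (p - 0))
    | succ m ih =>
      intro hm
      have ih' := ih (by omega)
      have e : p - m = (p - (m + 1)) + 1 := by omega
      have hle : Bj (p - m) ≤ Bj (p - (m + 1)) := by rw [e]; exact hmono _
      have hne : Bj (p - m) ≠ Bj (p - (m + 1)) := by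
        intro heq
        apply hnot (p - (m + 1)) (by omega)
        rw [← e, heq]
        exact Subgroup.mem_sup_right (Subgroup.subset_closure ⟨_, le_refl _, rfl⟩)
      obtain ⟨a, ha⟩ := (IsPGroup.iff_card).1 (hpg.to_subgroup (Bj (p - (m + 1))))
      obtain ⟨a', ha'⟩ := (IsPGroup.iff_card).1 (hpg.to_subgroup (Bj (p - m)))
      have hlt : Nat.card (Bj (p - m)) < Nat.card (Bj (p - (m + 1))) := by
        by_contra hcon
        exact hne (Subgroup.eq_of_le_of_card_ge hle (not_lt.1 hcon))
      rw [ha, ha'] at hlt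
      have haa : a' < a := (Nat.pow_lt_pow_iff_right hp.out.one_lt).1 hlt
      calc p ^ (m + 1) * Nat.card K = p * (p ^ m * Nat.card K) := by ring
        _ ≤ p * Nat.card (Bj (p - m)) := Nat.mul_le_mul_left _ ih'
        _ = p ^ (a' + 1) := by rw [ha']; ring
        _ ≤ p ^ a := Nat.pow_le_pow_right hp0 haa
        _ = Nat.card (Bj (p - (m + 1))) := ha.symm
  have h0 := key p le_rfl
  exact h0.trans (Subgroup.card_le_card_group _)


/-- A subgroup of index `p ^ 2` whose core has index at least `p ^ (p + 1)`. -/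
theorem exists_subgroup {P : Type*} [Group P] [Finite P] {p : ℕ} [hp : Fact p.Prime]
    (A : Subgroup P) [hAn : A.Normal] (hAc : IsMulCommutative A) (hAe : ∀ a ∈ A, a ^ p = 1)
    (hidx : A.index = p) (x y : P) (hx : x ∈ A)
    (hprod : ((List.range p).map (fun i => (y ^ i)⁻¹ * x * y ^ i)).prod ≠ 1) :
    ∃ H : Subgroup P, H.index = p ^ 2 ∧ p ^ (p + 1) ≤ H.normalCore.index := by
  classical
  let cg : CommGroup ↥A := { (inferInstance : Group ↥A) with
    mul_comm := fun a b => hAc.is_comm.comm a b }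
  have hexp : ∀ b : ↥A, b ^ p = 1 := by
    intro b
    apply Subtype.ext
    rw [Subgroup.coe_pow]
    exact hAe b b.2
  -- conjugation by `y`
  have hconj : ∀ a : ↥A, y⁻¹ * (a : P) * y ∈ A := by
    intro a
    have := hAn.conj_mem a a.2 y⁻¹
    rwa [inv_inv] at this
  let c : ↥A →* ↥A := MonoidHom.mk' (fun a => ⟨y⁻¹ * (a : P) * y, hconj a⟩) (by
    intro a b
    apply Subtype.ext
    show y⁻¹ * ((a : P) * (b : P)) * y = y⁻¹ * (a : P) * y * (y⁻¹ * (b : P) * y)
    group)
  have hc1 : ∀ a : ↥A, ((c a : ↥A) : P) = y⁻¹ * (a : P) * y := fun a => rfl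
  have hcit : ∀ (j : ℕ) (a : ↥A), ((c^[j] a : ↥A) : P) = (y ^ j)⁻¹ * (a : P) * y ^ j := by
    intro j
    induction j with
    | zero => intro a; simp
    | succ j ih =>
      intro a
      rw [Function.iterate_succ_apply', hc1, ih, pow_succ]
      group
  have hyp : y ^ p ∈ A := by
    have := A.pow_index_mem y
    rwa [hidx] at this
  have hcp : ∀ b : ↥A, c^[p] b = b := by
    intro b
    apply Subtype.ext
    rw [hcit]
    have hcomm : (⟨y ^ p, hyp⟩ : ↥A) * b = b * ⟨y ^ p, hyp⟩ := hAc.is_comm.comm _ _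
    have hcomm' : y ^ p * (b : P) = (b : P) * y ^ p := congrArg Subtype.val hcomm
    rw [mul_assoc, ← hcomm', ← mul_assoc, inv_mul_cancel, one_mul]
  -- the norm
  have hnorm : ∀ n : ℕ, ((∏ j ∈ Finset.range n, c^[j] (⟨x, hx⟩ : ↥A) : ↥A) : P) =
      ((List.range n).map (fun i => (y ^ i)⁻¹ * x * y ^ i)).prod := by
    intro n
    induction n with
    | zero => simp
    | succ n ih =>
      rw [Finset.prod_range_succ, Subgroup.coe_mul, ih, List.range_succ, List.map_append,
        List.prod_append, hcit]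
      simp
  have hN1 : (∏ j ∈ Finset.range p, c^[j] (⟨x, hx⟩ : ↥A) : ↥A) ≠ 1 := by
    intro h
    apply hprod
    rw [← hnorm p, h]
    rfl
  -- a hyperplane avoiding the norm
  have md : Module (ZMod p) (Additive ↥A) := AddCommGroup.zmodModule (n := p) (by
    intro x
    exact congrArg Additive.ofMul (hexp (Additive.toMul x)))
  have hN0 : Additive.ofMul (∏ j ∈ Finset.range p, c^[j] (⟨x, hx⟩ : ↥A) : ↥A) ≠ 0 := by
    intro h
    exact hN1 (Additive.ofMul.injective h)
  obtain ⟨f, hf⟩ : ∃ f : Additive ↥A →ₗ[ZMod p] ZMod p,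
      f (Additive.ofMul (∏ j ∈ Finset.range p, c^[j] (⟨x, hx⟩ : ↥A) : ↥A)) ≠ 0 := by
    by_contra hcon
    apply hN0
    apply (Module.forall_dual_apply_eq_zero_iff (ZMod p) _).1
    intro f
    by_contra hf
    exact hcon ⟨f, hf⟩
  let φ : ↥A →* Multiplicative (ZMod p) := AddMonoidHom.toMultiplicativeRight f.toAddMonoidHom
  have hφ : ∀ a : ↥A, φ a = Multiplicative.ofAdd (f (Additive.ofMul a)) := fun a => rfl
  have hNφ : (∏ j ∈ Finset.range p, c^[j] (⟨x, hx⟩ : ↥A) : ↥A) ∉ φ.ker := by
    intro h
    rw [MonoidHom.mem_ker, hφ] at h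
    exact hf (Multiplicative.ofAdd.injective h)
  have hcardM : Nat.card (Multiplicative (ZMod p)) = p := by
    rw [Nat.card_congr Multiplicative.toAdd, Nat.card_zmod]
  have hidxφ : φ.ker.index = p := by
    rw [Subgroup.index_ker]
    have hdvd : Nat.card φ.range ∣ p := by
      have := Subgroup.card_subgroup_dvd_card φ.range
      rwa [hcardM] at this
    rcases (Nat.dvd_prime hp.out).1 hdvd with h1 | h1
    · exfalso
      have hbot : φ.range = ⊥ := Subgroup.card_eq_one.1 h1
      apply hNφ
      rw [MonoidHom.mem_ker]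
      have : φ (∏ j ∈ Finset.range p, c^[j] (⟨x, hx⟩ : ↥A) : ↥A) ∈ φ.range := ⟨_, rfl⟩
      rw [hbot] at this
      exact Subgroup.mem_bot.1 this
    · exact h1
  refine ⟨φ.ker.map A.subtype, ?_, ?_⟩
  · rw [Subgroup.index_map_subtype, hidxφ, hidx, pow_two]
  · have hKA : (φ.ker.map A.subtype).normalCore ≤ A :=
      (Subgroup.normalCore_le _).trans (Subgroup.map_subtype_le _)
    have hK' : ((φ.ker.map A.subtype).normalCore).subgroupOf A ≤ φ.ker := by
      intro k hk
      have hk1 : (k : P) ∈ φ.ker.map A.subtype :=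
        Subgroup.normalCore_le _ (Subgroup.mem_subgroupOf.1 hk)
      obtain ⟨k', hk', hkk⟩ := hk1
      have : k' = k := Subtype.ext hkk
      rwa [← this]
    have hcK : ∀ k ∈ ((φ.ker.map A.subtype).normalCore).subgroupOf A,
        c k ∈ ((φ.ker.map A.subtype).normalCore).subgroupOf A := by
      intro k hk
      rw [Subgroup.mem_subgroupOf] at hk ⊢
      rw [hc1]
      have := (Subgroup.normalCore_normal (φ.ker.map A.subtype)).conj_mem _ hk y⁻¹
      rwa [inv_inv] at this
    have hbound := @chain_bound p hp ↥A cg _ hexp c hcp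
      (((φ.ker.map A.subtype).normalCore).subgroupOf A) φ.ker hK' hcK ⟨x, hx⟩ hNφ
    have h1 : (((φ.ker.map A.subtype).normalCore).subgroupOf A).index *
        Nat.card ↥(((φ.ker.map A.subtype).normalCore).subgroupOf A) = Nat.card ↥A :=
      Subgroup.index_mul_card _
    have hpos : 0 < Nat.card ↥(((φ.ker.map A.subtype).normalCore).subgroupOf A) := Nat.card_pos
    have h2 : p ^ p ≤ (((φ.ker.map A.subtype).normalCore).subgroupOf A).index := by
      rw [← h1] at hbound
      exact Nat.le_of_mul_le_mul_right hbound hpos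
    have h3 : ((φ.ker.map A.subtype).normalCore).relIndex A * A.index =
        ((φ.ker.map A.subtype).normalCore).index := Subgroup.relIndex_mul_index hKA
    rw [← h3, hidx, pow_succ]
    exact Nat.mul_le_mul_right p h2

/-- A `p`-group acting on the cosets of a subgroup of index `p ^ 2` whose core has index at least
`p ^ (p + 1)` maps onto a Sylow `p`-subgroup of the symmetric group of degree `p ^ 2`. -/
theorem exists_sylow_surj {P : Type*} [Group P] [Finite P] {p : ℕ} [hp : Fact p.Prime]
    (hP : IsPGroup p P) (H : Subgroup P) (hH : H.index = p ^ 2)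
    (hcore : p ^ (p + 1) ≤ H.normalCore.index) :
    ∃ (Q : Sylow p (Equiv.Perm (Fin (p ^ 2))))
      (f : P →* ↥(Q : Subgroup (Equiv.Perm (Fin (p ^ 2))))), Function.Surjective f := by
  classical
  have hcardq : Nat.card (P ⧸ H) = p ^ 2 := hH
  let e : P ⧸ H ≃ Fin (p ^ 2) := Finite.equivFinOfCardEq hcardq
  let g : P →* Equiv.Perm (Fin (p ^ 2)) :=
    (e.permCongrHom : Equiv.Perm (P ⧸ H) →* Equiv.Perm (Fin (p ^ 2))).comp
      (MulAction.toPermHom P (P ⧸ H))
  have hker : g.ker = H.normalCore := by
    rw [Subgroup.normalCore_eq_ker]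
    ext a
    simp only [MonoidHom.mem_ker, g, MonoidHom.comp_apply]
    constructor
    · intro h
      exact e.permCongrHom.injective (by rw [map_one]; exact h)
    · intro h
      rw [h]
      exact map_one _
  have hR : IsPGroup p g.range := hP.of_surjective g.rangeRestrict g.rangeRestrict_surjective
  obtain ⟨Q, hRQ⟩ := hR.exists_le_sylow
  have hcardQ : Nat.card (Q : Subgroup (Equiv.Perm (Fin (p ^ 2)))) = p ^ (p + 1) := by
    rw [Sylow.card_eq_multiplicity, Nat.card_perm, Nat.card_fin]
    congr 1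
    have h1 : (p ^ 2).factorial.factorization p = p.factorial.factorization p + p := by
      rw [pow_two]
      exact Nat.factorization_factorial_mul hp.out
    have h2 : p.factorial.factorization p = 1 := by
      have := Nat.factorization_factorial_mul (n := 1) hp.out
      rw [mul_one] at this
      rw [this]
      simp
    rw [h1, h2, add_comm]
  have hcardR : Nat.card g.range = H.normalCore.index := by
    rw [← hker, Subgroup.index_ker]
  have hRQeq : g.range = (Q : Subgroup (Equiv.Perm (Fin (p ^ 2)))) :=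
    Subgroup.eq_of_le_of_card_ge hRQ (by rw [hcardQ, hcardR]; exact hcore)
  refine ⟨Q, g.codRestrict (Q : Subgroup (Equiv.Perm (Fin (p ^ 2)))) (fun a => hRQ ⟨a, rfl⟩), ?_⟩
  rintro ⟨q, hq⟩
  rw [← hRQeq] at hq
  obtain ⟨a, rfl⟩ := hq
  exact ⟨a, rfl⟩

end Cfsg.Agent.Lib.Lead.WreathImage
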